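import Cfsg.Agent.H517.PslTwo

/-!
# `PSL_3(q)`, `q ≥ 8` even, has an element with a nonsolvable centralizer (helper517)

`diag(c⁻², c, c)`, `c³ ≠ 1`, commutes with the block `SL₂(q)`.
-/

set_option autoImplicit false

namespace Cfsg.Agent.H517

open Subgroup Matrix
open Cfsg.Agent.GpLn.Block Cfsg.Agent.GpLn.Elem

/-- Some nonidentity element of `G` has a nonsolvable centralizer. -/
def NSX (G : Type*) [Group G] : Prop :=
  ∃ t : G, t ≠ 1 ∧ ¬ Group.IsSolvable (Subgroup.centralizer ({t} : Set G))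

theorem NSX.of_hom {G Q : Type*} [Group G] [Group Q] {t : G} (h1 : t ≠ 1) (f : Q →* G)
    (hQ : ¬ Group.IsSolvable Q) (hk : Group.IsSolvable f.ker) (hc : ∀ x, f x * t = t * f x) : NSX G := by
  refine ⟨t, h1, fun h => hQ ?_⟩
  have hle : f.range ≤ centralizer ({t} : Set G) := by
    rintro _ ⟨x, rfl⟩
    exact mem_centralizer_singleton_iff.2 (hc x)
  have : Group.IsSolvable f.range := isSolvable_mono hle h
  exact Group.isSolvable_of_ker_le_range (f.ker.subtype) f.rangeRestrict (by
    intro x hx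
    rw [MonoidHom.ker_rangeRestrict] at hx
    exact ⟨⟨x, hx⟩, rfl⟩)

theorem NSX.of_injective {G H : Type*} [Group G] [Group H] (f : H →* G) (hf : Function.Injective f) (h : NSX H) :
    NSX G := by
  obtain ⟨t, h1, h3⟩ := h
  refine NSX.of_hom (t := f t) (fun h => h1 (hf (by rw [h, map_one])))
    (f.comp (Subgroup.centralizer ({t} : Set H)).subtype) h3 ?_ ?_
  · have hi : Function.Injective (f.comp (Subgroup.centralizer ({t} : Set H)).subtype) :=
      hf.comp (Subgroup.subtype_injective _)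
    rw [(MonoidHom.ker_eq_bot_iff _).2 hi]
    exact Group.isSolvable_of_comm (fun a b => Subsingleton.elim _ _)
  · intro x
    change f x * f t = f t * f x
    rw [← map_mul, ← map_mul, (Subgroup.mem_centralizer_singleton_iff.1 x.2)]

theorem NSX.of_equiv {G H : Type*} [Group G] [Group H] (e : H ≃* G) (h : NSX H) : NSX G :=
  h.of_injective e.toMonoidHom e.injective

theorem NSC.nsx {G : Type*} [Group G] (h : NSC G) : NSX G := by
  obtain ⟨t, h1, -, h3⟩ := h
  exact ⟨t, h1, h3⟩

theorem NSX.not_all {G : Type*} [Group G] (h : NSX G)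
    (hs : ∀ t : G, t ≠ 1 → Group.IsSolvable (Subgroup.centralizer ({t} : Set G))) : False := by
  obtain ⟨t, h1, h3⟩ := h
  exact h3 (hs t h1)

theorem NSX.of_proj {Q X G : Type*} [Group Q] [Group X] [Group G] (π : X →* G) (hk : π.ker = center X)
    (hQ : ¬ Group.IsSolvable Q) (f : Q →* X) (hf : Function.Injective f) (z : X)
    (hz : z ∉ Subgroup.center X) (hcomm : ∀ x, f x * z = z * f x) : NSX G := by
  have hz1 : π z ≠ 1 := by
    intro h
    exact hz (by rw [← hk]; exact h)
  refine NSX.of_hom hz1 (π.comp f) hQ ?_ ?_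
  · have hcen : ∀ a b : (π.comp f).ker, a * b = b * a := by
      intro a b
      apply Subtype.ext
      apply hf
      have ha : f a ∈ Subgroup.center X := by rw [← hk]; exact a.2
      change f (a * b) = f (b * a)
      rw [map_mul, map_mul]
      exact (Subgroup.mem_center_iff.1 ha (f b)).symm
    exact Group.isSolvable_of_comm hcen
  · intro x
    change π (f x) * π z = π z * π (f x)
    rw [← map_mul, ← map_mul, hcomm]

namespace PslThree

variable {F : Type*} [Field F]

theorem nsx [Finite F] {G : Type*} [Group G] (hF : 5 ≤ Nat.card F)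
    (e : G ≃* ProjectiveSpecialLinearGroup (Fin 3) F) : NSX G := by
  obtain ⟨π, -, hker⟩ := exists_proj (α := Fin 1 ⊕ Fin 2) e (by simp)
  obtain ⟨c, hc⟩ := exists_pow_ne_one_of_isCyclic (G := Fˣ) (k := 3) (by norm_num) (by
    have := Fintype.ofFinite F
    rw [Nat.card_units]; omega)
  have hc0 : (c : F) ≠ 0 := c.ne_zero
  let A : Matrix (Fin 1) (Fin 1) F := !![((c : F) ^ 2)⁻¹]
  let B : Matrix (Fin 2) (Fin 2) F := !![(c : F), 0; 0, c]
  have hA : A.det * B.det = 1 := by
    simp only [A, B, det_fin_two, det_unique, of_apply, cons_val', cons_val_zero, cons_val_one]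
    simp
    field_simp
  refine NSX.of_proj π hker (PslTwo.not_isSolvable_sl (k := 2) (fun _ => by omega) le_rfl) (low (Fin 1)) ?_
    (blk A B hA) ?_ ?_
  · intro x y h
    have h1 : ((low (Fin 1) x : SpecialLinearGroup (Fin 1 ⊕ Fin 2) F) : Matrix (Fin 1 ⊕ Fin 2) (Fin 1 ⊕ Fin 2) F) =
      ((low (Fin 1) y : SpecialLinearGroup (Fin 1 ⊕ Fin 2) F) : Matrix (Fin 1 ⊕ Fin 2) (Fin 1 ⊕ Fin 2) F) := by rw [h]
    rw [coe_low, coe_low, fromBlocks_inj] at h1
    exact Subtype.ext h1.2.2.2
  · intro h
    obtain ⟨r, -, hr⟩ := Matrix.SpecialLinearGroup.mem_center_iff.1 h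
    rw [coe_blk] at hr
    have h1 := congrFun (congrFun hr (Sum.inl 0)) (Sum.inl 0)
    have h2 := congrFun (congrFun hr (Sum.inr 0)) (Sum.inr 0)
    simp [A, B] at h1 h2
    apply hc
    apply Units.ext
    rw [h1] at h2
    have h3 : (c : F) * (c : F) ^ 2 = 1 := by
      nth_rewrite 1 [← h2]
      exact inv_mul_cancel₀ (pow_ne_zero 2 hc0)
    rw [Units.val_pow_eq_pow_val, Units.val_one, pow_succ', h3]
  · intro x
    apply Subtype.ext
    rw [Matrix.SpecialLinearGroup.coe_mul, Matrix.SpecialLinearGroup.coe_mul, coe_low, coe_blk, fromBlocks_multiply,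
      fromBlocks_multiply]
    have hB : B = (c : F) • (1 : Matrix (Fin 2) (Fin 2) F) := by
      ext i j
      fin_cases i <;> fin_cases j <;> simp [B]
    rw [hB]
    simp

end PslThree

end Cfsg.Agent.H517
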